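import Groth.Agent.Models.H54.SurfGeom
import Groth.Agent.Models.H64.RegInt

/-!
# Local rings at closed points of a regular proper model of a curve have dimension two
-/

set_option autoImplicit false
universe u

open AlgebraicGeometry CategoryTheory CategoryTheory.Limits IsLocalRing
open Groth.Agent.Dix.GenFibre

namespace Groth.Agent.Models.H55.ClosedPt

variable {R : Type u} [CommRing R] [IsDomain R] [IsDiscreteValuationRing R]
  {C X : Scheme.{u}} {f : C ⟶ Spec (CommRingCat.of (FractionRing R))} {p : X ⟶ Spec (CommRingCat.of R)}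

theorem ringKrullDim_stalk (hC : Curve.IsSmoothProperCurve (FractionRing R) C f)
    (hX : Models.IsRegularProperModel R X p C f) (x : X) (hx : IsClosed ({x} : Set X)) :
    ringKrullDim (X.presheaf.stalk x) = 2 := by
  obtain ⟨⟨hfl, hlft, hqc, g, hg⟩, hpr, hreg⟩ := hX
  obtain ⟨-, -, hint, hdim⟩ := hC
  have hiX : IsIntegral X := H64.RegInt.isIntegral hg hreg
  let e : C ≅ ((Neron.genericFibre R).obj (Over.mk p)).left :=
    IsPullback.isoIsPullback X (Spec (CommRingCat.of (FractionRing R))) hg (isPullback_genι (Over.mk p))
  have h2 : IrreducibleSpace ((Neron.genericFibre R).obj (Over.mk p)).left :=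
    Function.Surjective.irreducibleSpace e.hom.homeomorph.continuous e.hom.homeomorph.surjective
  have h3 : topologicalKrullDim ((Neron.genericFibre R).obj (Over.mk p)).left = 1 := by
    rw [← hdim]
    exact (IsHomeomorph.topologicalKrullDim_eq e.hom.homeomorph e.hom.homeomorph.isHomeomorph).symm
  have h4 : Flat (Over.mk p).hom := hfl
  have h5 : IsProper (Over.mk p).hom := hpr
  have h6 : IsIntegral (Over.mk p).left := hiX
  exact H54.SurfGeom.ringKrullDim_stalk_of_isClosed (Over.mk p) h3 x hx

end Groth.Agent.Models.H55.ClosedPt
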