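import Groth.Agent.Models.H55.Pts

/-!
# Two proper normal models of the same scheme with irreducible closed fibres

`X₁`, `X₂` proper over a local scheme `S` with closed point `s`, integral and normal, with a common dense open
subscheme. The closed fibre of `Xᵢ` is irreducible of dimension one with generic point `ηᵢ`, and the local ring of
`Xᵢ` at `ηᵢ` is a valuation ring. Let `zᵢ` be the point of the graph over `ηᵢ`.
* `isIso_of_eq`: if `z₁ = z₂` then the birational map is an isomorphism.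
* `exists_point`: otherwise let `x₁ = q₁ z₂` and `x₂ = q₂ z₁`. For every `x ≠ x₂` in the closed fibre of `X₂` there is a
  point of the graph over `(x₁, x)` at which `q₂` is a local isomorphism.
-/

set_option autoImplicit false
universe u

open AlgebraicGeometry CategoryTheory CategoryTheory.Limits IsLocalRing TopologicalSpace
open Groth.Agent.Dix Groth.Agent.Dix.Center Groth.Agent.Dix.ExcIdeal Groth.Agent.Models.H55.Graph
open Groth.Agent.Models.H55.Pts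

namespace Groth.Agent.Models.H55.Dich

theorem exists_generization {X Y : Scheme.{u}} (f : X ⟶ Y) (x : X) (hiso : IsIso (f.stalkMap x)) (y' : Y)
    (h : y' ⤳ f x) : ∃ x', x' ⤳ x ∧ f x' = y' := by
  have h1 : y' ∈ Set.range (Y.fromSpecStalk (f x)) := by
    rw [Scheme.range_fromSpecStalk]; exact h
  obtain ⟨a, ha⟩ := h1
  obtain ⟨b, hb⟩ := (Spec.map (f.stalkMap x)).surjective a
  refine ⟨X.fromSpecStalk x b, ?_, ?_⟩
  · have h2 : X.fromSpecStalk x b ∈ Set.range (X.fromSpecStalk x) := ⟨b, rfl⟩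
    rw [Scheme.range_fromSpecStalk] at h2
    exact h2
  · rw [← Scheme.Hom.comp_apply, ← Scheme.SpecMap_stalkMap_fromSpecStalk, Scheme.Hom.comp_apply, hb, ha]

/-- A model with irreducible one-dimensional closed fibre. -/
structure IsMod {S X : Scheme.{u}} (p : X ⟶ S) (s : S) (η : X) : Prop where
  mem : p η = s
  gen : ∀ a, p a = s → η ⤳ a
  closed : ∀ a, p a = s → a ≠ η → IsClosed ({a} : Set X)
  not_closed : ¬ IsClosed ({η} : Set X)
  normal : ∀ x : X, IsIntegrallyClosed (X.presheaf.stalk x)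

section

variable {S X₁ X₂ C : Scheme.{u}} {p₁ : X₁ ⟶ S} {p₂ : X₂ ⟶ S} {g₁ : C ⟶ X₁} {g₂ : C ⟶ X₂}
    [IsIntegral X₁] [IsIntegral X₂] (Q : BGraph p₁ p₂ g₁ g₂) [IsProper p₁] [IsProper p₂] [IsLocallyNoetherian X₂]
    (s : S) (hs : ∀ t : S, IsClosed ({t} : Set S) → t = s)
    (η₁ : X₁) (η₂ : X₂) (h₁ : IsMod p₁ s η₁) (h₂ : IsMod p₂ s η₂)
    (z₁ : Q.G) (hz₁ : ∀ z, Q.q₁ z = η₁ → z = z₁)

omit [IsLocallyNoetherian X₂] [IsProper p₂] in
include hs in
theorem over_of_isClosed (z : Q.G) (hz : IsClosed ({z} : Set Q.G)) : p₁ (Q.q₁ z) = s := by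
  apply hs
  have h := (Q.q₁ ≫ p₁).isClosedMap _ hz
  rw [Set.image_singleton] at h
  exact h

include h₁ h₂ hz₁ hs in
theorem quasiFiniteAt (z : Q.G) (hz : IsClosed ({z} : Set Q.G)) (hne : Q.q₂ z ≠ Q.q₂ z₁) : Q.q₂.QuasiFiniteAt z := by
  apply IsoPt.quasiFiniteAt_of Q.q₂ z hz
  intro z' hz' hsp
  by_contra hcon
  have hx : IsClosed ({Q.q₂ z} : Set X₂) := by
    have h := Q.q₂.isClosedMap _ hz
    rwa [Set.image_singleton] at h
  have hx₁ : IsClosed ({Q.q₁ z} : Set X₁) := by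
    have h := Q.q₁.isClosedMap _ hz
    rwa [Set.image_singleton] at h
  have h3 : Q.q₁ z' ≠ Q.q₁ z := fun h => hcon (specializes_eq Q z z' hx hsp hz' h)
  have h4 : Q.q₁ z' ⤳ Q.q₁ z := hsp.map Q.q₁.continuous
  have h5 : p₁ (Q.q₁ z') = s := by
    have e1 : ∀ a : Q.G, p₁ (Q.q₁ a) = p₂ (Q.q₂ a) := fun a => by
      rw [← Scheme.Hom.comp_apply, Q.w, Scheme.Hom.comp_apply]
    rw [e1, hz', ← e1]
    exact over_of_isClosed Q s hs z hz
  have h6 : Q.q₁ z' = η₁ := by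
    by_contra h7
    have h8 := h₁.closed _ h5 h7
    exact h3 (h4.mem_closed h8 rfl).symm
  have h7 := hz₁ z' h6
  exact hne (by rw [← h7]; exact hz'.symm)

include h₁ h₂ hz₁ hs in
theorem isIso_stalkMap (z : Q.G) (hz : IsClosed ({z} : Set Q.G)) (hne : Q.q₂ z ≠ Q.q₂ z₁) : IsIso (Q.q₂.stalkMap z) := by
  have hn : IsLocallyNoetherian Q.G := LocallyOfFiniteType.isLocallyNoetherian Q.q₂
  exact IsoPt.isIso_stalkMap_of_quasiFiniteAt h₂.normal Q.q₂ Q.gen₂ Q.iso₂ z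
    (quasiFiniteAt Q s hs η₁ η₂ h₁ h₂ z₁ hz₁ z hz hne)

include h₁ h₂ hz₁ hs in
theorem isIso_q₂ [CompactSpace X₂] (hη : Q.q₂ z₁ = η₂) : IsIso Q.q₂ := by
  have hcG : CompactSpace Q.G := QuasiCompact.compactSpace_of_compactSpace Q.q₂
  have hqf : ∀ z : Q.G, Q.q₂.QuasiFiniteAt z := by
    intro z
    obtain ⟨w, hw, hwc⟩ := IsClosed.exists_closed_singleton (X := Q.G) (S := closure {z}) isClosed_closure
      ⟨z, subset_closure rfl⟩
    have hzw : z ⤳ w := specializes_iff_mem_closure.mpr hw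
    have h1 : Q.q₂.QuasiFiniteAt w := by
      apply quasiFiniteAt Q s hs η₁ η₂ h₁ h₂ z₁ hz₁ w hwc
      intro h
      apply h₂.not_closed
      rw [← hη, ← h]
      have h := Q.q₂.isClosedMap _ hwc
      rwa [Set.image_singleton] at h
    exact hzw.mem_open Q.q₂.quasiFiniteLocus.isOpen h1
  have hlqf : LocallyQuasiFinite Q.q₂ := by
    have h2 : Q.q₂.quasiFiniteLocus = ⊤ := by
      ext z
      exact ⟨fun _ => trivial, fun _ => hqf z⟩
    have h3 : LocallyQuasiFinite (Q.q₂.quasiFiniteLocus.ι ≫ Q.q₂) := inferInstance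
    have h4 : IsIso Q.q₂.quasiFiniteLocus.ι := by
      rw [isIso_iff_isOpenImmersion_and_surjective]
      refine ⟨inferInstance, ⟨fun z => ⟨⟨z, by rw [h2]; trivial⟩, rfl⟩⟩⟩
    have h5 : Q.q₂ = inv Q.q₂.quasiFiniteLocus.ι ≫ (Q.q₂.quasiFiniteLocus.ι ≫ Q.q₂) := by
      rw [IsIso.inv_hom_id_assoc]
    rw [h5]
    infer_instance
  have hopen : IsOpenImmersion Q.q₂ :=
    Groth.Agent.Ega3B.NormalBirational.isOpenImmersion_of_birational h₂.normal Q.q₂ Q.gen₂ Q.iso₂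
  rw [isIso_iff_isOpenImmersion_and_surjective]
  exact ⟨hopen, ⟨Pts.surjective Q.q₂ Q.gen₂⟩⟩

variable (z₂ : Q.G) (hz₂ : ∀ z, Q.q₂ z = η₂ → z = z₂) (hz₁' : Q.q₁ z₁ = η₁) (hz₂' : Q.q₂ z₂ = η₂)
  (hz₂i : IsIso (Q.q₂.stalkMap z₂))

include h₁ hz₁ hz₂' h₂ in
theorem isClosed_of_ne (hne : z₁ ≠ z₂) : IsClosed ({Q.q₁ z₂} : Set X₁) := by
  apply h₁.closed
  · have e1 : p₁ (Q.q₁ z₂) = p₂ (Q.q₂ z₂) := by
      rw [← Scheme.Hom.comp_apply, Q.w, Scheme.Hom.comp_apply]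
    rw [e1, hz₂', h₂.mem]
  · intro h
    exact hne (hz₁ z₂ h).symm

include h₁ hz₁ hz₂' h₂ hz₂ hs hz₂i in
theorem exists_point [CompactSpace X₂] (hne : z₁ ≠ z₂) (x : X₂) (hx : p₂ x = s) (hxne : x ≠ Q.q₂ z₁) :
    ∃ z : Q.G, Q.q₂ z = x ∧ IsIso (Q.q₂.stalkMap z) ∧ z₂ ⤳ z ∧ Q.q₁ z = Q.q₁ z₂ := by
  by_cases hxη : x = η₂
  · exact ⟨z₂, by rw [hxη, hz₂'], hz₂i, specializes_rfl, rfl⟩
  have hxc := h₂.closed x hx hxη
  have hcG : CompactSpace Q.G := QuasiCompact.compactSpace_of_compactSpace Q.q₂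
  obtain ⟨z, hz, hzc⟩ := IsClosed.exists_closed_singleton (X := Q.G) (S := Q.q₂ ⁻¹' {x}) (hxc.preimage Q.q₂.continuous)
    (by obtain ⟨z, hz⟩ := Pts.surjective Q.q₂ Q.gen₂ x; exact ⟨z, hz⟩)
  have hz' : Q.q₂ z = x := hz
  have hiso := isIso_stalkMap Q s hs η₁ η₂ h₁ h₂ z₁ hz₁ z hzc (by rw [hz']; exact hxne)
  obtain ⟨w, hwz, hw⟩ := exists_generization Q.q₂ z hiso η₂ (by rw [hz']; exact h₂.gen x hx)
  have hw' := hz₂ w hw
  rw [hw'] at hwz
  refine ⟨z, hz', hiso, hwz, ?_⟩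
  have h5 := isClosed_of_ne Q s η₁ η₂ h₁ h₂ z₁ hz₁ z₂ hz₂' hne
  exact (hwz.map Q.q₁.continuous).mem_closed h5 rfl

end

end Groth.Agent.Models.H55.Dich
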