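import Groth.Agent.Models.H55.Recog
import Groth.Agent.Models.H45.WDeg
import Groth.Agent.Dix.Cast0

/-!
# Components of genus zero and self-intersection `-[κ : k]` are exceptional
-/

set_option autoImplicit false
universe u

open AlgebraicGeometry CategoryTheory CategoryTheory.Limits
open Groth.Agent.Dix.InterNum Groth.Agent.Dix.IdealModCartier

namespace Groth.Agent.Models.H55.ExcCrit

theorem nonempty_pullback_congr {X Y : Scheme.{u}} {f g : X ⟶ Y} (h : f = g) (M : Y.Modules) :
    Nonempty ((Scheme.Modules.pullback f).obj M ≅ (Scheme.Modules.pullback g).obj M) := by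
  subst h
  exact ⟨Iso.refl _⟩

/-- Recognition of the projective line with its line bundle. -/
theorem exists_iso_twist (k : Type u) [Field k] (Y : Scheme.{u}) [Y.Over (Spec (CommRingCat.of k))]
    [IsIntegral Y] [IsProper (Y ↘ Spec (CommRingCat.of k))] (hdim : topologicalKrullDim Y = 1)
    (h0 : Module.finrank k (Coh.HH Y (Coh.structureModule Y) 0) = 1)
    (h1 : Module.finrank k (Coh.HH Y (Coh.structureModule Y) 1) = 0)
    (L : Y.Modules) (hL : PicF.IsInvertible L) (hdeg : Curv2.deg k Y L 1 = 1) :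
    ∃ e : CohB1.ProjSpace 1 k ≅ Y, e.hom ≫ (Y ↘ Spec (CommRingCat.of k)) = CohB1.ProjSpace.toSpec 1 k ∧
      Nonempty ((Scheme.Modules.pullback e.hom).obj L ≅ Twist.twistProjSpace 1 k 1) := by
  obtain ⟨i, hi, hi2, ⟨e⟩⟩ := Groth.Agent.S1636.result k Y hdim h0 h1 L hL 1 one_pos hdeg
  have hs := Recog.surjective_of_dim i hdim (Dix.EtMinF.topologicalKrullDim_P1 k)
  have hiso : IsIso i := isIso_of_isClosedImmersion_of_surjective i
  refine ⟨(asIso i).symm, ?_, ?_⟩
  · rw [Iso.symm_hom, asIso_inv, IsIso.inv_comp_eq]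
    exact hi2.symm
  · have h2 : (asIso i).symm.hom ≫ i = 𝟙 _ := (asIso i).symm.hom_inv_id
    obtain ⟨e2⟩ := nonempty_pullback_congr h2 (Twist.twistProjSpace 1 k 1)
    exact ⟨(Scheme.Modules.pullback (asIso i).symm.hom).mapIso e.symm ≪≫
      (Scheme.Modules.pullbackComp (asIso i).symm.hom i).app _ ≪≫ e2 ≪≫
      (Scheme.Modules.pullbackId _).app _⟩

/-- Recognition of the projective line over the field of constants. -/
theorem exists_iso_const (k : Type u) [Field k] (Y : Scheme.{u}) [Y.Over (Spec (CommRingCat.of k))]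
    [IsIntegral Y] [IsProper (Y ↘ Spec (CommRingCat.of k))] (hdim : topologicalKrullDim Y = 1)
    (h1 : Module.finrank k (Coh.HH Y (Coh.structureModule Y) 1) = 0)
    (N : Y.Modules) (hN : PicF.IsInvertible N)
    (hdeg : ArSurf.curveDeg k Y N = Module.finrank k (Coh.HH Y (Coh.structureModule Y) 0)) :
    ∃ (K : Type u) (_ : Field K) (e : CohB1.ProjSpace 1 K ≅ Y),
      Nonempty ((Scheme.Modules.pullback e.hom).obj N ≅ Twist.twistProjSpace 1 K 1) := by
  have hf : IsField Γ(Y, ⊤) := H45.FieldConst.isField_top k Y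
  have hfin := H45.FieldConst.finite_top k Y
  let K : Type u := Γ(Y, ⊤)
  let _ : Field K := hf.toField
  let _ : Algebra k K := (Coh.toGlobal (Y ↘ Spec (CommRingCat.of k))).toAlgebra
  have hfin' : FiniteDimensional k K := hfin
  let q : Y ⟶ Spec (CommRingCat.of K) := Y.toSpecΓ
  have hq : Y ↘ Spec (CommRingCat.of k) = q ≫ Spec.map (CommRingCat.ofHom (algebraMap k K)) := by
    have h2 : Y.toSpecΓ ≫ Spec.map ((Scheme.ΓSpecIso (CommRingCat.of k)).inv ≫ (Y ↘ Spec (CommRingCat.of k)).appTop) =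
        Y ↘ Spec (CommRingCat.of k) := by
      rw [Spec.map_comp, ← Category.assoc, ← Scheme.toSpecΓ_naturality, Category.assoc,
        toSpecΓ_SpecMap_ΓSpecIso_inv, Category.comp_id]
    exact h2.symm
  have hqp : IsProper q := by
    have : IsProper (q ≫ Spec.map (CommRingCat.ofHom (algebraMap k K))) := by rw [← hq]; infer_instance
    exact IsProper.of_comp q (Spec.map (CommRingCat.ofHom (algebraMap k K)))
  let _ : Y.Over (Spec (CommRingCat.of K)) := ⟨q⟩
  have hqp' : IsProper (Y ↘ Spec (CommRingCat.of K)) := hqp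
  have hbij : Function.Bijective (CurvesB.HZero.gl K Y) := by
    have h3 : (CurvesB.HZero.gl K Y : K → Γ(Y, ⊤)) = id := by
      funext a
      change Y.toSpecΓ.appTop ((Scheme.ΓSpecIso Γ(Y, ⊤)).inv a) = a
      rw [Scheme.toSpecΓ_appTop]
      exact (Scheme.ΓSpecIso Γ(Y, ⊤)).commRingCatIsoToRingEquiv.apply_symm_apply a
    rw [h3]
    exact Function.bijective_id
  have h0K : Module.finrank K (Coh.HH Y (Coh.structureModule Y) 0) = 1 := by
    rw [finrank_eq_one_iff']
    refine ⟨(CurvesB.HZero.equivO Y).symm 1, ?_, ?_⟩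
    · intro h
      have := congrArg (CurvesB.HZero.equivO Y) h
      rw [(CurvesB.HZero.equivO Y).apply_symm_apply, map_zero] at this
      exact one_ne_zero this
    · intro w
      obtain ⟨c, hc⟩ := hbij.2 (CurvesB.HZero.equivO Y w)
      refine ⟨c, ?_⟩
      apply (CurvesB.HZero.equivO Y).injective
      rw [CurvesB.HZero.equivO_smul, (CurvesB.HZero.equivO Y).apply_symm_apply, mul_one, hc]
  have hpos : 0 < Module.finrank k K := Module.finrank_pos
  have h0k : Module.finrank k (Coh.HH Y (Coh.structureModule Y) 0) = Module.finrank k K := by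
    rw [Dix.Cast0.finrank_HH_const k K Y hq, h0K, mul_one]
  have h1K : Module.finrank K (Coh.HH Y (Coh.structureModule Y) 1) = 0 := by
    rw [Dix.Cast0.finrank_HH_const k K Y hq] at h1
    exact (Nat.mul_eq_zero.mp h1).resolve_left hpos.ne'
  have hdK : ArSurf.curveDeg K Y N = 1 := by
    rw [Dix.Cast0.curveDeg_const k K Y hq, h0k] at hdeg
    have h5 : (Module.finrank k K : ℤ) ≠ 0 := by exact_mod_cast hpos.ne'
    exact mul_left_cancel₀ h5 (by rw [hdeg, mul_one])
  rw [curveDeg_eq K Y hdim] at hdK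
  obtain ⟨e, -, he⟩ := exists_iso_twist K Y hdim h0K h1K N hN hdK
  exact ⟨K, inferInstance, e, he⟩

variable {R : Type u} [CommRing R] [IsDomain R] [IsDiscreteValuationRing R]
  {X : Over (Spec (CommRingCat.of R))}

/-- A component of genus zero with self-intersection `-[κ : k]` is exceptional. -/
theorem isExcCurve [IsProper X.hom] (Γ : ArSurf.VertComp R X) (L : X.left.Modules)
    (hL : ClSub.IsInverseOf L (ClSub.idealMod Γ.ι.ker)) (h1 : Models.h1 R X Γ = 0)
    (hself : ArSurf.inter R X L Γ = -(Models.wdeg R X Γ : ℤ)) : Models.IsExcCurve Γ.ι := by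
  have hp := H45.WDeg.isProper_curve Γ
  obtain ⟨hLi, hI⟩ := isInvertible_of_isInverseOf hL
  refine ⟨(isInvertible_idealMod_iff _).1 hI, ?_⟩
  have hN : PicF.IsInvertible ((Scheme.Modules.pullback Γ.ι).obj (ClSub.idealMod Γ.ι.ker)) :=
    Fdesc.LocGen.isInvertible_pullback Γ.ι hI
  have hdeg : ArSurf.curveDeg (IsLocalRing.ResidueField R) Γ.curve.left
      ((Scheme.Modules.pullback Γ.ι).obj (ClSub.idealMod Γ.ι.ker)) =
      Module.finrank (IsLocalRing.ResidueField R) (Coh.HH Γ.curve.left (Coh.structureModule Γ.curve.left) 0) := by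
    have h2 := deg_inverse (IsLocalRing.ResidueField R) Γ.curve.left Γ.dim_eq
      (Dix.InterSurf.isInverseOf_pullback Γ.ι hL)
    rw [← curveDeg_eq _ _ Γ.dim_eq, ← curveDeg_eq _ _ Γ.dim_eq] at h2
    change ArSurf.inter R X L Γ = _ at h2
    rw [hself] at h2
    have h3 := neg_inj.mp h2
    exact h3.symm
  obtain ⟨K, hK, e, ⟨e'⟩⟩ := exists_iso_const (IsLocalRing.ResidueField R) Γ.curve.left Γ.dim_eq h1 _ hN hdeg
  exact ⟨K, hK, e, ⟨((Scheme.Modules.pullbackComp e.hom Γ.ι).app _).symm ≪≫ e'⟩⟩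

end Groth.Agent.Models.H55.ExcCrit
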