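import Groth.Agent.CycB.ImageInt
import Groth.Agent.Dix.IsoPt
import Mathlib.AlgebraicGeometry.Morphisms.Proper

/-!
# The closure of the graph of a birational map between proper integral schemes

`X₁`, `X₂` proper over `S`, integral, with dense open immersions `g₁ : C ⟶ X₁`, `g₂ : C ⟶ X₂` over `S`.
`BGraph p₁ p₂ g₁ g₂` : the data of an integral scheme `G` with proper birational morphisms `q₁ : G ⟶ X₁`,
`q₂ : G ⟶ X₂` which together embed `G` in `X₁ ×_S X₂`.
-/

set_option autoImplicit false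
universe u

open AlgebraicGeometry CategoryTheory CategoryTheory.Limits IsLocalRing TopologicalSpace

namespace Groth.Agent.Models.H55.Graph

/-- The closed graph of the birational map `g₁⁻¹ ≫ g₂`. -/
structure BGraph {S X₁ X₂ C : Scheme.{u}} (p₁ : X₁ ⟶ S) (p₂ : X₂ ⟶ S) (g₁ : C ⟶ X₁) (g₂ : C ⟶ X₂)
    [IsIntegral X₁] [IsIntegral X₂] where
  /-- the graph -/
  G : Scheme.{u}
  /-- the first projection -/
  q₁ : G ⟶ X₁
  /-- the second projection -/
  q₂ : G ⟶ X₂
  w : q₁ ≫ p₁ = q₂ ≫ p₂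
  [int : IsIntegral G]
  [pr₁ : IsProper q₁]
  [pr₂ : IsProper q₂]
  closed : IsClosedImmersion (pullback.lift q₁ q₂ w)
  /-- the common open subscheme -/
  j : C ⟶ G
  j₁ : j ≫ q₁ = g₁
  j₂ : j ≫ q₂ = g₂
  gen₁ : q₁ (genericPoint G) = genericPoint X₁
  gen₂ : q₂ (genericPoint G) = genericPoint X₂
  iso₁ : IsIso (q₁.stalkMap (genericPoint G))
  iso₂ : IsIso (q₂.stalkMap (genericPoint G))

attribute [instance] BGraph.int BGraph.pr₁ BGraph.pr₂

/-- The graph with the two factors exchanged. -/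
noncomputable def BGraph.swap {S X₁ X₂ C : Scheme.{u}} {p₁ : X₁ ⟶ S} {p₂ : X₂ ⟶ S} {g₁ : C ⟶ X₁} {g₂ : C ⟶ X₂}
    [IsIntegral X₁] [IsIntegral X₂] (Q : BGraph p₁ p₂ g₁ g₂) : BGraph p₂ p₁ g₂ g₁ where
  G := Q.G
  q₁ := Q.q₂
  q₂ := Q.q₁
  w := Q.w.symm
  closed := by
    have h := Q.closed
    have h2 : pullback.lift Q.q₂ Q.q₁ Q.w.symm = pullback.lift Q.q₁ Q.q₂ Q.w ≫ (pullbackSymmetry p₁ p₂).hom := by
      apply pullback.hom_ext
      · rw [Category.assoc, pullbackSymmetry_hom_comp_fst]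
        exact (pullback.lift_fst _ _ _).trans (pullback.lift_snd _ _ _).symm
      · rw [Category.assoc, pullbackSymmetry_hom_comp_snd]
        exact (pullback.lift_snd _ _ _).trans (pullback.lift_fst _ _ _).symm
    rw [h2]
    infer_instance
  j := Q.j
  j₁ := Q.j₂
  j₂ := Q.j₁
  gen₁ := Q.gen₂
  gen₂ := Q.gen₁
  iso₁ := Q.iso₂
  iso₂ := Q.iso₁

/-- `q` is birational if `j ≫ q` is an open immersion with `j` dominant. -/
theorem gen_iso_of_comp {C G X : Scheme.{u}} [IsIntegral C] [IsIntegral G] [IsIntegral X] (j : C ⟶ G) (q : G ⟶ X)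
    (hj : j (genericPoint C) = genericPoint G) [IsOpenImmersion (j ≫ q)] :
    q (genericPoint G) = genericPoint X ∧ IsIso (q.stalkMap (genericPoint G)) := by
  have h1 : (j ≫ q) (genericPoint C) = genericPoint X := genericPoint_eq_of_isOpenImmersion _
  have h2 : q (genericPoint G) = genericPoint X := by
    rw [← h1, Scheme.Hom.comp_apply, hj]
  refine ⟨h2, ?_⟩
  have key : ∀ z : G, z = genericPoint G → j (genericPoint C) = z → IsIso (q.stalkMap z) := by
    rintro _ hz rfl
    have h3 : IsIso (q.stalkMap (j (genericPoint C)) ≫ j.stalkMap (genericPoint C)) := by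
      have h3' : IsIso ((j ≫ q).stalkMap (genericPoint C)) := inferInstance
      rw [Scheme.Hom.stalkMap_comp] at h3'
      exact h3'
    -- the second map is an injection of fields
    have hf : IsField (G.presheaf.stalk (j (genericPoint C))) := by
      rw [hj]
      exact Semifield.toIsField (G.functionField)
    have hnt : Nontrivial (C.presheaf.stalk (genericPoint C)) := inferInstance
    have hinj : Function.Injective (j.stalkMap (genericPoint C)) := by
      let _ : Field (G.presheaf.stalk (j (genericPoint C))) := hf.toField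
      exact (j.stalkMap (genericPoint C)).hom.injective
    have hsurj : Function.Surjective (j.stalkMap (genericPoint C)) := by
      intro a
      obtain ⟨b, hb⟩ := (ConcreteCategory.bijective_of_isIso
        (q.stalkMap (j (genericPoint C)) ≫ j.stalkMap (genericPoint C))).2 a
      exact ⟨_, hb⟩
    have h4 : IsIso (j.stalkMap (genericPoint C)) := by
      rw [ConcreteCategory.isIso_iff_bijective]
      exact ⟨hinj, hsurj⟩
    exact IsIso.of_isIso_comp_right (q.stalkMap (j (genericPoint C))) (j.stalkMap (genericPoint C))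
  exact key _ rfl hj

theorem exists_graph {S X₁ X₂ C : Scheme.{u}} (p₁ : X₁ ⟶ S) (p₂ : X₂ ⟶ S) (g₁ : C ⟶ X₁) (g₂ : C ⟶ X₂)
    [IsIntegral X₁] [IsIntegral X₂] [IsIntegral C] [IsProper p₁] [IsProper p₂] [IsOpenImmersion g₁]
    [IsOpenImmersion g₂] (w : g₁ ≫ p₁ = g₂ ≫ p₂) [QuasiCompact g₁] :
    Nonempty (BGraph p₁ p₂ g₁ g₂) := by
  let γ : C ⟶ pullback p₁ p₂ := pullback.lift g₁ g₂ w
  have hγ₁ : γ ≫ pullback.fst p₁ p₂ = g₁ := pullback.lift_fst _ _ _
  have hγ₂ : γ ≫ pullback.snd p₁ p₂ = g₂ := pullback.lift_snd _ _ _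
  have hqc : QuasiCompact γ := by
    have : QuasiCompact (γ ≫ pullback.fst p₁ p₂) := by rw [hγ₁]; infer_instance
    exact MorphismProperty.of_postcomp (W := @QuasiCompact) (W' := @QuasiSeparated) γ (pullback.fst p₁ p₂)
      inferInstance this
  have hint : IsIntegral γ.image := CycB.ImageInt.isIntegral_image γ
  have hj := CycB.ImageInt.toImage_genericPoint γ
  have hj₁ : γ.toImage ≫ (γ.imageι ≫ pullback.fst p₁ p₂) = g₁ := by
    rw [Scheme.Hom.toImage_imageι_assoc, hγ₁]
  have hj₂ : γ.toImage ≫ (γ.imageι ≫ pullback.snd p₁ p₂) = g₂ := by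
    rw [Scheme.Hom.toImage_imageι_assoc, hγ₂]
  have ho₁ : IsOpenImmersion (γ.toImage ≫ (γ.imageι ≫ pullback.fst p₁ p₂)) := by rw [hj₁]; infer_instance
  have ho₂ : IsOpenImmersion (γ.toImage ≫ (γ.imageι ≫ pullback.snd p₁ p₂)) := by rw [hj₂]; infer_instance
  obtain ⟨a1, b1⟩ := gen_iso_of_comp γ.toImage (γ.imageι ≫ pullback.fst p₁ p₂) hj
  obtain ⟨a2, b2⟩ := gen_iso_of_comp γ.toImage (γ.imageι ≫ pullback.snd p₁ p₂) hj
  have hw : (γ.imageι ≫ pullback.fst p₁ p₂) ≫ p₁ = (γ.imageι ≫ pullback.snd p₁ p₂) ≫ p₂ := by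
    rw [Category.assoc, Category.assoc, pullback.condition]
  refine ⟨{ G := γ.image
            q₁ := γ.imageι ≫ pullback.fst p₁ p₂
            q₂ := γ.imageι ≫ pullback.snd p₁ p₂
            w := hw
            closed := ?_
            j := γ.toImage
            j₁ := hj₁
            j₂ := hj₂
            gen₁ := a1
            gen₂ := a2
            iso₁ := b1
            iso₂ := b2 }⟩
  have h2 : pullback.lift _ _ hw = γ.imageι := by
    apply pullback.hom_ext
    · exact pullback.lift_fst _ _ _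
    · exact pullback.lift_snd _ _ _
  rw [h2]
  infer_instance

end Groth.Agent.Models.H55.Graph
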