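import Groth.Agent.Dix.InterNum
import Groth.Agent.Grpsch.PicGrp
import Groth.Agent.Divis.CartierStalk

/-!
# The degree of a regular rational point of a curve
-/

set_option autoImplicit false
universe u

open AlgebraicGeometry CategoryTheory CategoryTheory.Limits IsLocalRing
open Groth.Agent.Divis.CartierBasic Groth.Agent.Divis.CartierStalk Groth.Agent.Dix.InterNum
open Groth.Agent.Dix.IdealModCartier

namespace Groth.Agent.Models.H55.PtDeg

/-- The stalk of the ideal of a closed point. -/
theorem stalkIdeal_ker_fromSpecResidueField {Y : Scheme.{u}} (y : Y) [IsClosedImmersion (Y.fromSpecResidueField y)] :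
    stalkIdeal (Y.fromSpecResidueField y).ker y = maximalIdeal (Y.presheaf.stalk y) := by
  have key : ∀ (x : Y) (z : Spec (Y.residueField y)), Y.fromSpecResidueField y z = x →
      stalkIdeal (Y.fromSpecResidueField y).ker x = maximalIdeal (Y.presheaf.stalk x) := by
    rintro _ z rfl
    rw [← ker_stalkMap]
    have h1 : IsField ((Spec (Y.residueField y)).presheaf.stalk z) := by
      have h2 : IsIntegral (Spec (Y.residueField y)) := inferInstance
      have h3 : z = genericPoint (Spec (Y.residueField y)) := Subsingleton.elim _ _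
      rw [h3]
      exact Semifield.toIsField ((Spec (Y.residueField y)).functionField)
    have h2 : Function.Surjective ((Y.fromSpecResidueField y).stalkMap z).hom :=
      (Y.fromSpecResidueField y).stalkMap_surjective z
    let _ : Field ((Spec (Y.residueField y)).presheaf.stalk z) := h1.toField
    exact IsLocalRing.eq_maximalIdeal (RingHom.ker_isMaximal_of_surjective _ h2)
  exact key y (closedPoint _) (Y.fromSpecResidueField_apply y _)

theorem isEff_ker_fromSpecResidueField {Y : Scheme.{u}} [IsIntegral Y] [IsLocallyNoetherian Y] (y : Y)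
    [IsClosedImmersion (Y.fromSpecResidueField y)] (ϖ : Y.presheaf.stalk y)
    (hϖ : maximalIdeal (Y.presheaf.stalk y) = Ideal.span {ϖ}) (hϖ0 : ϖ ≠ 0) :
    BlowUp.IsEffCartierIdeal (Y.fromSpecResidueField y).ker := by
  apply isEffCartierIdeal_of_stalkIdeal
  intro x hx
  have h1 : x ∈ Set.range (Y.fromSpecResidueField y) := (Dix.VertGeom.mem_support_ker_iff _ x).1 hx
  obtain ⟨z, rfl⟩ := h1
  have h2 : Y.fromSpecResidueField y z = y := Y.fromSpecResidueField_apply y _
  rw [h2]
  exact ⟨ϖ, mem_nonZeroDivisors_of_ne_zero hϖ0, by rw [stalkIdeal_ker_fromSpecResidueField, hϖ]⟩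

theorem h0_eq_one {k : Type u} [Field k] {Z : Scheme.{u}} [Nonempty Z] (f : Z ⟶ Spec (CommRingCat.of k))
    (h : Function.Surjective (glo f)) : h0 f = 1 := by
  have hnt : Nontrivial Γ(Z, ⊤) := by
    have : Nonempty (⊤ : Z.Opens) := ⟨⟨Classical.arbitrary Z, trivial⟩⟩
    infer_instance
  let _ : Module k Γ(Z, ⊤) := Module.compHom Γ(Z, ⊤) (glo f)
  have hinj : Function.Injective (glo f) := (glo f).injective
  let e : k ≃ₗ[k] Γ(Z, ⊤) := LinearEquiv.ofBijective
    { toFun := glo f
      map_add' := map_add _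
      map_smul' := fun a b => by
        change glo f (a * b) = glo f a * glo f b
        rw [map_mul] } ⟨hinj, h⟩
  change Module.finrank k Γ(Z, ⊤) = 1
  rw [← e.finrank_eq, Module.finrank_self]

theorem fromSpecResidueField_appTop {Y : Scheme.{u}} (y : Y) :
    (Y.fromSpecResidueField y).appTop = Y.presheaf.germ ⊤ y trivial ≫ Y.residue y ≫
      (Scheme.ΓSpecIso (Y.residueField y)).inv := by
  have h1 : (homOfLE (le_top : (⊤ : (Spec (Y.presheaf.stalk y)).Opens) ≤ ⊤)).op = 𝟙 _ := rfl
  rw [Scheme.fromSpecResidueField, Scheme.Hom.comp_appTop, Scheme.fromSpecStalk_appTop]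
  erw [h1]
  rw [CategoryTheory.Functor.map_id, Category.comp_id, Category.assoc, ← Scheme.ΓSpecIso_inv_naturality]

theorem surjective_glo {k : Type u} [Field k] {Y : Scheme.{u}} (f : Y ⟶ Spec (CommRingCat.of k)) (y : Y)
    (h : ∀ c : Y.presheaf.stalk y, ∃ a : k, c - Y.presheaf.germ ⊤ y trivial (glo f a) ∈
      maximalIdeal (Y.presheaf.stalk y)) : Function.Surjective (glo (Y.fromSpecResidueField y ≫ f)) := by
  intro v
  obtain ⟨w, rfl⟩ := (ConcreteCategory.bijective_of_isIso (Scheme.ΓSpecIso (Y.residueField y)).inv).2 v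
  obtain ⟨c, rfl⟩ := Y.residue_surjective y w
  obtain ⟨a, ha⟩ := h c
  refine ⟨a, ?_⟩
  rw [glo_comp, fromSpecResidueField_appTop]
  have h1 : Y.residue y (Y.presheaf.germ ⊤ y trivial (glo f a)) = Y.residue y c := by
    have h2 := (IsLocalRing.residue_eq_zero_iff _).mpr ha
    rw [map_sub, sub_eq_zero] at h2
    exact h2.symm
  exact congrArg (Scheme.ΓSpecIso (Y.residueField y)).inv h1

/-- A rational point whose local ring has principal maximal ideal gives an invertible module of degree one. -/
theorem exists_invertible_deg_one (k : Type u) [Field k] (Y : Scheme.{u}) [Y.Over (Spec (CommRingCat.of k))]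
    [IsIntegral Y] [IsProper (Y ↘ Spec (CommRingCat.of k))] (hdim : topologicalKrullDim Y = 1) (y : Y)
    (hy : IsClosed ({y} : Set Y)) (ϖ : Y.presheaf.stalk y) (hϖ : maximalIdeal (Y.presheaf.stalk y) = Ideal.span {ϖ})
    (hϖ0 : ϖ ≠ 0) (hsurj : Function.Surjective (glo (Y.fromSpecResidueField y ≫ (Y ↘ Spec (CommRingCat.of k))))) :
    ∃ L : Y.Modules, PicF.IsInvertible L ∧ Curv2.deg k Y L 1 = 1 := by
  have hcl : IsClosedImmersion (Y.fromSpecResidueField y) := isClosed_singleton_iff_isClosedImmersion.mp hy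
  have hn : IsLocallyNoetherian Y := LocallyOfFiniteType.isLocallyNoetherian (Y ↘ Spec (CommRingCat.of k))
  let D := (Y.fromSpecResidueField y).ker
  have hD : BlowUp.IsEffCartierIdeal D := isEff_ker_fromSpecResidueField y ϖ hϖ hϖ0
  obtain ⟨L, hL, ⟨e⟩⟩ := Grpsch.PicGrp.exists_inverse (isInvertible_idealMod hD)
  have hLD : ClSub.IsInverseOf L (ClSub.idealMod D) := ⟨Ega2.Tens.swap L (ClSub.idealMod D) ≪≫ e⟩
  refine ⟨L, hL, ?_⟩
  rw [deg_of_effCartier k Y hdim D hD L hLD, finrank_quotMod]
  have h1 : h0 (D.subschemeι ≫ (Y ↘ Spec (CommRingCat.of k))) =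
      h0 (Y.fromSpecResidueField y ≫ (Y ↘ Spec (CommRingCat.of k))) := by
    refine h0_congr _ _ (asIso (Y.fromSpecResidueField y).toImage).symm ?_
    rw [Iso.symm_hom, asIso_inv, IsIso.inv_comp_eq, ← Category.assoc]
    congr 1
    exact ((Y.fromSpecResidueField y).toImage_imageι).symm
  rw [h1, h0_eq_one _ hsurj]
  rfl

end Groth.Agent.Models.H55.PtDeg
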