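import Groth.Agent.Models.H55.Graph
import Groth.Agent.Dix.ExcGen

/-!
# Points of the graph of a birational map

`Q : BGraph p₁ p₂ g₁ g₂`.
* `exists_pt`: over a point of the target whose local ring is a valuation ring there is exactly one point, and
  the stalk map is an isomorphism there.
* `specializes_eq`: two points `z' ⤳ z` of the graph with the same images are equal (if the image of `z` is closed).
-/

set_option autoImplicit false
universe u

open AlgebraicGeometry CategoryTheory CategoryTheory.Limits IsLocalRing TopologicalSpace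
open Groth.Agent.Dix Groth.Agent.Dix.Center Groth.Agent.Dix.ExcIdeal Groth.Agent.Models.H55.Graph

namespace Groth.Agent.Models.H55.Pts

section Bir

variable {X Y : Scheme.{u}} [IsIntegral X] [IsIntegral Y] (f : X ⟶ Y) [IsProper f]
  (hgen : f (genericPoint X) = genericPoint Y) (hbir : IsIso (f.stalkMap (genericPoint X)))

include hgen hbir

omit [IsProper f] in
theorem stalkMap_injective (x : X) : Function.Injective (f.stalkMap x) := by
  have h : f (genericPoint X) ⤳ f x := (genericPoint_specializes X x).map f.continuous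
  have h1 := toKY_injective f hgen hbir (f x) h
  rw [← toK_stk f x (f x) specializes_rfl h, stk_self] at h1
  exact Function.Injective.of_comp h1

omit hbir in
theorem surjective : Function.Surjective f := by
  intro q
  have h1 : IsClosed (Set.range f) := f.isClosedMap.isClosed_range
  exact (genericPoint_specializes Y q).mem_closed h1 ⟨_, hgen⟩

omit [IsProper f] in
theorem isIso_stalkMap_of_valuationRing (x : X) [ValuationRing (Y.presheaf.stalk (f x))] :
    IsIso (f.stalkMap x) := by
  rw [ConcreteCategory.isIso_iff_bijective]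
  have hinj := stalkMap_injective f hgen hbir x
  refine ⟨hinj, fun b => ?_⟩
  have h : f (genericPoint X) ⤳ f x := (genericPoint_specializes X x).map f.continuous
  obtain ⟨a₁, a₂, ha₂, hb⟩ := toKY_frac f hgen hbir (f x) h (toK X x b)
  have hK : ∀ a, toKY f (f x) h a = toK X x (f.stalkMap x a) := fun a => (toK_stalkMap f x h a).symm
  have ha₂' : toKY f (f x) h a₂ ≠ 0 := fun h0 => ha₂ (toKY_injective f hgen hbir (f x) h (by rw [h0, map_zero]))
  rw [eq_div_iff ha₂', hK, hK, ← map_mul] at hb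
  have hb' := toK_injective X x hb
  rcases ValuationRing.dvd_total a₁ a₂ with ⟨c, hc⟩ | ⟨c, hc⟩
  · -- `a₂ = a₁ c`
    have h2 : b * f.stalkMap x c = 1 := by
      have h0 : f.stalkMap x a₁ ≠ 0 := by
        intro h0
        have h1 : a₁ = 0 := hinj (by rw [h0, map_zero])
        rw [h1, zero_mul] at hc
        exact ha₂ hc
      have h3 : IsDomain (X.presheaf.stalk x) := inferInstance
      apply mul_left_cancel₀ h0
      rw [mul_one]
      calc f.stalkMap x a₁ * (b * f.stalkMap x c) = b * (f.stalkMap x a₁ * f.stalkMap x c) := by ring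
        _ = b * f.stalkMap x a₂ := by rw [hc, map_mul]
        _ = f.stalkMap x a₁ := hb'
    have h4 : IsUnit c := by
      have h5 : IsUnit (f.stalkMap x c) := IsUnit.of_mul_eq_one b (by rw [mul_comm]; exact h2)
      exact isUnit_of_map_unit (f.stalkMap x).hom c h5
    obtain ⟨d, hd⟩ := h4.exists_right_inv
    refine ⟨d, ?_⟩
    have h6 : f.stalkMap x c * f.stalkMap x d = 1 := by rw [← map_mul, hd, map_one]
    calc f.stalkMap x d = (b * f.stalkMap x c) * f.stalkMap x d := by rw [h2, one_mul]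
      _ = b * (f.stalkMap x c * f.stalkMap x d) := by ring
      _ = b := by rw [h6, mul_one]
  · -- `a₁ = a₂ c`
    refine ⟨c, ?_⟩
    have h0 : f.stalkMap x a₂ ≠ 0 := by
      intro h0
      exact ha₂ (hinj (by rw [h0, map_zero]))
    have h3 : IsDomain (X.presheaf.stalk x) := inferInstance
    apply mul_left_cancel₀ h0
    rw [← map_mul, ← hc, ← hb']
    ring

theorem exists_pt (y : Y) [ValuationRing (Y.presheaf.stalk y)] :
    ∃ x : X, f x = y ∧ IsIso (f.stalkMap x) ∧ ∀ x', f x' = y → x' = x := by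
  obtain ⟨x, hx⟩ := surjective f hgen y
  have : ValuationRing (Y.presheaf.stalk (f x)) := by rw [hx]; infer_instance
  have h1 := isIso_stalkMap_of_valuationRing f hgen hbir x
  exact ⟨x, hx, h1, fun x' hx' => (ExcGen.eq_of_isIso_stalkMap f x x' (by rw [hx, hx']) h1).symm⟩

end Bir

section

variable {S X₁ X₂ C : Scheme.{u}} {p₁ : X₁ ⟶ S} {p₂ : X₂ ⟶ S} {g₁ : C ⟶ X₁} {g₂ : C ⟶ X₂}
    [IsIntegral X₁] [IsIntegral X₂] (Q : BGraph p₁ p₂ g₁ g₂) [LocallyOfFiniteType p₂]

theorem specializes_eq (z z' : Q.G) (hx : IsClosed ({Q.q₂ z} : Set X₂)) (h : z' ⤳ z) (h₂ : Q.q₂ z' = Q.q₂ z)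
    (h₁ : Q.q₁ z' = Q.q₁ z) : z' = z := by
  let x := Q.q₂ z
  have hcl : IsClosedImmersion (X₂.fromSpecResidueField x) := isClosed_singleton_iff_isClosedImmersion.mp hx
  let u := X₂.fromSpecResidueField x ≫ p₂
  have hu : LocallyQuasiFinite u := LocallyQuasiFinite.of_injective fun a b _ => Subsingleton.elim _ _
  let Gx := Q.q₂.fiber x
  have hcond : (Q.q₂.fiberι x ≫ Q.q₁) ≫ p₁ = Q.q₂.fiberToSpecResidueField x ≫ u := by
    change _ = Q.q₂.fiberToSpecResidueField x ≫ X₂.fromSpecResidueField x ≫ p₂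
    rw [Category.assoc, Q.w]
    have := pullback.condition (f := Q.q₂) (g := X₂.fromSpecResidueField x)
    exact (Category.assoc _ _ _).symm.trans ((congrArg (· ≫ p₂) this).trans (Category.assoc _ _ _))
  let k : Gx ⟶ pullback p₁ u := pullback.lift (Q.q₂.fiberι x ≫ Q.q₁) (Q.q₂.fiberToSpecResidueField x) hcond
  let m : pullback p₁ u ⟶ pullback p₁ p₂ := pullback.lift (pullback.fst p₁ u)
    (pullback.snd p₁ u ≫ X₂.fromSpecResidueField x) (by rw [pullback.condition, Category.assoc])
  have hkm : k ≫ m = Q.q₂.fiberι x ≫ pullback.lift Q.q₁ Q.q₂ Q.w := by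
    have e1 : m ≫ pullback.fst p₁ p₂ = pullback.fst p₁ u := pullback.lift_fst _ _ _
    have e2 : m ≫ pullback.snd p₁ p₂ = pullback.snd p₁ u ≫ X₂.fromSpecResidueField x := pullback.lift_snd _ _ _
    have e3 : k ≫ pullback.fst p₁ u = Q.q₂.fiberι x ≫ Q.q₁ := pullback.lift_fst _ _ _
    have e4 : k ≫ pullback.snd p₁ u = Q.q₂.fiberToSpecResidueField x := pullback.lift_snd _ _ _
    apply pullback.hom_ext
    · rw [Category.assoc, Category.assoc, e1, e3, pullback.lift_fst]
    · rw [Category.assoc, Category.assoc, e2, pullback.lift_snd, ← Category.assoc, e4]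
      exact (pullback.condition (f := Q.q₂) (g := X₂.fromSpecResidueField x)).symm
  have hc := Q.closed
  have hkmq : LocallyQuasiFinite (k ≫ m) := by
    rw [hkm]
    infer_instance
  have hk : LocallyQuasiFinite k := LocallyQuasiFinite.of_comp k m
  have hh : LocallyQuasiFinite (k ≫ pullback.fst p₁ u) := inferInstance
  have hh' : k ≫ pullback.fst p₁ u = Q.q₂.fiberι x ≫ Q.q₁ := pullback.lift_fst _ _ _
  rw [hh'] at hh
  -- the points of the fibre
  obtain ⟨t, ht⟩ : ∃ t : Gx, Q.q₂.fiberι x t = z := by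
    have : z ∈ Set.range (Q.q₂.fiberι x) := by
      rw [Scheme.Hom.range_fiberι]; rfl
    exact this
  obtain ⟨t', ht'⟩ : ∃ t' : Gx, Q.q₂.fiberι x t' = z' := by
    have : z' ∈ Set.range (Q.q₂.fiberι x) := by
      rw [Scheme.Hom.range_fiberι]; exact h₂
    exact this
  have hs : t' ⤳ t := by
    rw [← (Q.q₂.fiberι x).isEmbedding.isInducing.specializes_iff, ht, ht']
    exact h
  have hd := (Q.q₂.fiberι x ≫ Q.q₁).isDiscrete_preimage_singleton (Q.q₁ z)
  have m1 : t ∈ (Q.q₂.fiberι x ≫ Q.q₁) ⁻¹' {Q.q₁ z} := by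
    change (Q.q₂.fiberι x ≫ Q.q₁) t = _
    rw [Scheme.Hom.comp_apply, ht]
  have m2 : t' ∈ (Q.q₂.fiberι x ≫ Q.q₁) ⁻¹' {Q.q₁ z} := by
    change (Q.q₂.fiberι x ≫ Q.q₁) t' = _
    rw [Scheme.Hom.comp_apply, ht', h₁]
  have hdt := hd.to_subtype
  have hs' : (⟨t', m2⟩ : ((Q.q₂.fiberι x ≫ Q.q₁) ⁻¹' {Q.q₁ z} : Set Gx)) ⤳ ⟨t, m1⟩ := by
    rw [← Topology.IsInducing.subtypeVal.specializes_iff]
    exact hs
  have h6 := congrArg Subtype.val hs'.eq
  change t' = t at h6
  rw [← ht, ← ht', h6]

end

end Groth.Agent.Models.H55.Pts
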