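import Groth.Agent.Models.H55.PtDeg
import Groth.Agent.S1636
import Groth.Agent.Dix.EtMinF
import Groth.Agent.Dix.VertGeom
import Groth.Agent.CurvesB.DimPts
import Groth.Agent.CurvesB.HZero

/-!
# A proper curve of genus zero with a regular rational point is a projective line
-/

set_option autoImplicit false
universe u

open AlgebraicGeometry CategoryTheory CategoryTheory.Limits IsLocalRing
open Groth.Agent.Dix.InterNum Groth.Agent.Models.H55.PtDeg

namespace Groth.Agent.Models.H55.Recog

/-- A closed immersion of an integral curve into an irreducible curve is surjective. -/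
theorem surjective_of_dim {C P : Scheme.{u}} (i : C ⟶ P) [IsClosedImmersion i] [IrreducibleSpace P]
    (hC : topologicalKrullDim C = 1) (hP : topologicalKrullDim P = 1) : Surjective i :=
  ⟨Dix.VertGeom.surjective_of_dim i i.isClosedEmbedding.isInducing i.isClosedEmbedding.isClosed_range hC.ge hP.le⟩

/-- A proper curve with `h⁰ = 1`, `h¹ = 0` and an invertible module of degree one is a projective line. -/
theorem exists_iso_of_deg_one (k : Type u) [Field k] (Y : Scheme.{u}) [Y.Over (Spec (CommRingCat.of k))]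
    [IsIntegral Y] [IsProper (Y ↘ Spec (CommRingCat.of k))] (hdim : topologicalKrullDim Y = 1)
    (h0 : Module.finrank k (Coh.HH Y (Coh.structureModule Y) 0) = 1)
    (h1 : Module.finrank k (Coh.HH Y (Coh.structureModule Y) 1) = 0)
    (L : Y.Modules) (hL : PicF.IsInvertible L) (hdeg : Curv2.deg k Y L 1 = 1) :
    ∃ e : Y ≅ CohB1.ProjSpace 1 k, e.hom ≫ CohB1.ProjSpace.toSpec 1 k = Y ↘ Spec (CommRingCat.of k) := by
  obtain ⟨i, hi, hi2, -⟩ := Groth.Agent.S1636.result k Y hdim h0 h1 L hL 1 one_pos hdeg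
  have hs := surjective_of_dim i hdim (Dix.EtMinF.topologicalKrullDim_P1 k)
  have hiso : IsIso i := isIso_of_isClosedImmersion_of_surjective i
  exact ⟨asIso i, hi2⟩

/-- The maximal ideal at a regular closed point of a curve is principal. -/
theorem exists_uniformizer {Y : Scheme.{u}} [IsIntegral Y] (hdim : topologicalKrullDim Y = 1) (y : Y)
    (hy : IsClosed ({y} : Set Y)) [IsRegularLocalRing (Y.presheaf.stalk y)] :
    ∃ ϖ : Y.presheaf.stalk y, maximalIdeal (Y.presheaf.stalk y) = Ideal.span {ϖ} ∧ ϖ ≠ 0 := by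
  have hne : y ≠ genericPoint Y := by
    rintro rfl
    obtain ⟨⟨a, b, -, hne⟩, -⟩ := CurvesB.DimOneTop.topologicalKrullDim_eq_one_iff.1 hdim
    have h1 : ∀ z : Y, z = genericPoint Y := fun z => (genericPoint_specializes z).mem_closed hy rfl
    exact hne ((h1 b).trans (h1 a).symm)
  have hd : ringKrullDim (Y.presheaf.stalk y) ≤ 1 := (CurvesB.DimPts.ringKrullDim_stalk_le y).trans hdim.le
  have hbot : maximalIdeal (Y.presheaf.stalk y) ≠ ⊥ := by
    intro h
    apply hne
    have h1 : IsField (Y.presheaf.stalk y) := IsLocalRing.isField_iff_maximalIdeal_eq.mpr h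
    have h2 : genericPoint Y ∈ Set.range (Y.fromSpecStalk y) := by
      rw [Scheme.range_fromSpecStalk]
      exact genericPoint_specializes y
    obtain ⟨q, hq⟩ := h2
    have h3 : q = closedPoint (Y.presheaf.stalk y) := by
      let _ : Field (Y.presheaf.stalk y) := h1.toField
      exact Subsingleton.elim (α := PrimeSpectrum (Y.presheaf.stalk y)) _ _
    rw [h3, Scheme.fromSpecStalk_closedPoint] at hq
    exact hq
  have h1 := IsRegularLocalRing.spanFinrank_maximalIdeal (R := Y.presheaf.stalk y)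
  rw [← h1] at hd
  have h2 : (maximalIdeal (Y.presheaf.stalk y)).spanFinrank ≤ 1 := by exact_mod_cast hd
  have h3 : (maximalIdeal (Y.presheaf.stalk y)).spanFinrank ≠ 0 := by
    intro h
    rw [Submodule.spanFinrank_eq_zero_iff_eq_bot ((isNoetherianRing_iff_ideal_fg _).mp inferInstance _)] at h
    exact hbot h
  have h4 : (maximalIdeal (Y.presheaf.stalk y)).spanFinrank = 1 := by omega
  rw [Submodule.spanFinrank_eq_one_iff] at h4
  obtain ⟨⟨ϖ, hϖ⟩, -⟩ := h4
  refine ⟨ϖ, hϖ, ?_⟩
  rintro rfl
  apply hbot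
  rw [hϖ]
  simp

/-- A proper curve with `h⁰ = 1`, `h¹ = 0` and a regular rational point is a projective line. -/
theorem exists_iso_of_point (k : Type u) [Field k] (Y : Scheme.{u}) [Y.Over (Spec (CommRingCat.of k))]
    [IsIntegral Y] [IsProper (Y ↘ Spec (CommRingCat.of k))] (hdim : topologicalKrullDim Y = 1)
    (h0 : Module.finrank k (Coh.HH Y (Coh.structureModule Y) 0) = 1)
    (h1 : Module.finrank k (Coh.HH Y (Coh.structureModule Y) 1) = 0)
    (y : Y) (hy : IsClosed ({y} : Set Y)) (hreg : IsRegularLocalRing (Y.presheaf.stalk y))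
    (hres : ∀ c : Y.presheaf.stalk y, ∃ a : k, c - Y.presheaf.germ ⊤ y trivial (glo (Y ↘ Spec (CommRingCat.of k)) a) ∈
      maximalIdeal (Y.presheaf.stalk y)) :
    ∃ e : Y ≅ CohB1.ProjSpace 1 k, e.hom ≫ CohB1.ProjSpace.toSpec 1 k = Y ↘ Spec (CommRingCat.of k) := by
  obtain ⟨ϖ, hϖ, hϖ0⟩ := exists_uniformizer hdim y hy
  obtain ⟨L, hL, hdeg⟩ := exists_invertible_deg_one k Y hdim y hy ϖ hϖ hϖ0 (surjective_glo _ y hres)
  exact exists_iso_of_deg_one k Y hdim h0 h1 L hL hdeg

end Groth.Agent.Models.H55.Recog
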