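import Groth.Agent.Dix.ExcIdeal

/-!
# Formal properties of the maps `stk f x y : O_{Y,y} → O_{X,x}` for `f x ⤳ y`
-/

set_option autoImplicit false
universe u

open AlgebraicGeometry CategoryTheory CategoryTheory.Limits IsLocalRing
open Groth.Agent.Dix Groth.Agent.Dix.Center Groth.Agent.Dix.ExcIdeal

namespace Groth.Agent.Models.H55.Stk

variable {X Y Z : Scheme.{u}}

theorem stk_stalkSpecializes (f : X ⟶ Y) (x : X) {y y' : Y} (h : f x ⤳ y) (h' : y ⤳ y') (h'' : f x ⤳ y')
    (a : Y.presheaf.stalk y') : stk f x y h (Y.presheaf.stalkSpecializes h' a) = stk f x y' h'' a := by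
  have h1 : Y.presheaf.stalkSpecializes h' ≫ Y.presheaf.stalkSpecializes h ≫ f.stalkMap x =
      Y.presheaf.stalkSpecializes h'' ≫ f.stalkMap x := by
    rw [← Category.assoc, TopCat.Presheaf.stalkSpecializes_comp]
  exact congr($h1 a)

theorem stk_comp (f : X ⟶ Y) (g : Y ⟶ Z) (x : X) (y : Y) (z : Z) (h₁ : f x ⤳ y) (h₂ : g y ⤳ z)
    (h₃ : (f ≫ g) x ⤳ z) (a : Z.presheaf.stalk z) :
    stk f x y h₁ (stk g y z h₂ a) = stk (f ≫ g) x z h₃ a := by
  have e1 : g (f x) ⤳ g y := h₁.map g.continuous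
  have h1 : (Z.presheaf.stalkSpecializes h₂ ≫ g.stalkMap y) ≫ (Y.presheaf.stalkSpecializes h₁ ≫ f.stalkMap x) =
      Z.presheaf.stalkSpecializes h₃ ≫ (f ≫ g).stalkMap x := by
    rw [Scheme.Hom.stalkMap_comp]
    have h2 := Scheme.Hom.stalkSpecializes_stalkMap g (f x) y h₁
    have h3 := TopCat.Presheaf.stalkSpecializes_comp Z.presheaf e1 h₂
    calc (Z.presheaf.stalkSpecializes h₂ ≫ g.stalkMap y) ≫ (Y.presheaf.stalkSpecializes h₁ ≫ f.stalkMap x)
        = Z.presheaf.stalkSpecializes h₂ ≫ (g.stalkMap y ≫ Y.presheaf.stalkSpecializes h₁) ≫ f.stalkMap x := by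
          simp only [Category.assoc]
      _ = Z.presheaf.stalkSpecializes h₂ ≫ (Z.presheaf.stalkSpecializes e1 ≫ g.stalkMap (f x)) ≫ f.stalkMap x := by
          rw [h2]
      _ = (Z.presheaf.stalkSpecializes h₂ ≫ Z.presheaf.stalkSpecializes e1) ≫ g.stalkMap (f x) ≫ f.stalkMap x := by
          simp only [Category.assoc]
      _ = _ := by rw [h3]; rfl
  exact congr($h1 a)

theorem stk_congr {f f' : X ⟶ Y} (e : f = f') (x : X) (y : Y) (h : f x ⤳ y) (h' : f' x ⤳ y)
    (a : Y.presheaf.stalk y) : stk f x y h a = stk f' x y h' a := by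
  subst e; rfl

theorem bijective_stk (f : X ⟶ Y) (x : X) (y : Y) (hxy : f x = y) (h : f x ⤳ y) (hiso : IsIso (f.stalkMap x)) :
    Function.Bijective (stk f x y h) := by
  subst hxy
  rw [stk_self]
  exact (ConcreteCategory.isIso_iff_bijective _).mp hiso

theorem surjective_stk (f : X ⟶ Y) [IsClosedImmersion f] (x : X) (y : Y) (hxy : f x = y) (h : f x ⤳ y) :
    Function.Surjective (stk f x y h) := by
  subst hxy
  rw [stk_self]
  exact f.stalkMap_surjective x

end Groth.Agent.Models.H55.Stk
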