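import Groth.Agent.Models.H55.Dich
import Groth.Agent.Models.H55.Stk
import Groth.Agent.Dix.ClosedAlg
import Groth.Agent.Picfga.RegLocus

/-!
# The residue field of the centre

`Q : BGraph p₁ p₂ g₁ g₂`, `ι₂ : Y₂ ⟶ X₂` the integral closed fibre, `z₂` the point of the graph over its generic point,
`x₁ = q₁ z₂`. `chi : O_{X₁,x₁} → K(Y₂)` is the residue map of the valuation ring of the generic point of `Y₂`.
* `ker_chi`: its kernel is the maximal ideal;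
* `exists_toK_of_point`, `exists_toK_of_normal`: the values of `chi` are regular at `y` if `q₂` is a local isomorphism at
  a point over `(x₁, y)`, or if `O_{Y₂,y}` is integrally closed.
-/

set_option autoImplicit false
universe u

open AlgebraicGeometry CategoryTheory CategoryTheory.Limits IsLocalRing TopologicalSpace Polynomial
open Groth.Agent.Dix Groth.Agent.Dix.Center Groth.Agent.Dix.ExcIdeal Groth.Agent.Models.H55.Graph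
open Groth.Agent.Models.H55.Pts Groth.Agent.Models.H55.Dich Groth.Agent.Models.H55.Stk

namespace Groth.Agent.Models.H55.Resid

variable {S X₁ X₂ C : Scheme.{u}} {p₁ : X₁ ⟶ S} {p₂ : X₂ ⟶ S} {g₁ : C ⟶ X₁} {g₂ : C ⟶ X₂}
    [IsIntegral X₁] [IsIntegral X₂] (Q : BGraph p₁ p₂ g₁ g₂)
    {Y₂ : Scheme.{u}} [IsIntegral Y₂] (ι₂ : Y₂ ⟶ X₂)
    (z₂ : Q.G) (hz₂ : Q.q₂ z₂ = ι₂ (genericPoint Y₂)) (hz₂i : IsIso (Q.q₂.stalkMap z₂))

/-- The local ring of `X₂` at the generic point of the closed fibre is the local ring of the graph. -/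
noncomputable def beta : X₂.presheaf.stalk (ι₂ (genericPoint Y₂)) ≃+* Q.G.presheaf.stalk z₂ :=
  RingEquiv.ofBijective (stk Q.q₂ z₂ (ι₂ (genericPoint Y₂)) (specializes_of_eq hz₂))
    (bijective_stk Q.q₂ z₂ _ hz₂ _ hz₂i)

/-- The residue map `O_{X₁,x₁} → K(Y₂)`. -/
noncomputable def chi : X₁.presheaf.stalk (Q.q₁ z₂) →+* Y₂.functionField :=
  ((ι₂.stalkMap (genericPoint Y₂)).hom.comp (beta Q ι₂ z₂ hz₂ hz₂i).symm.toRingHom).comp (Q.q₁.stalkMap z₂).hom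

theorem chi_apply (c : X₁.presheaf.stalk (Q.q₁ z₂)) (d : X₂.presheaf.stalk (ι₂ (genericPoint Y₂)))
    (h : stk Q.q₂ z₂ (ι₂ (genericPoint Y₂)) (specializes_of_eq hz₂) d = Q.q₁.stalkMap z₂ c) :
    chi Q ι₂ z₂ hz₂ hz₂i c = ι₂.stalkMap (genericPoint Y₂) d := by
  have h1 : (beta Q ι₂ z₂ hz₂ hz₂i).symm (Q.q₁.stalkMap z₂ c) = d := by
    rw [RingEquiv.symm_apply_eq]
    exact h.symm
  change ι₂.stalkMap (genericPoint Y₂) ((beta Q ι₂ z₂ hz₂ hz₂i).symm (Q.q₁.stalkMap z₂ c)) = _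
  rw [h1]

theorem isLocalHom_chi : IsLocalHom (chi Q ι₂ z₂ hz₂ hz₂i) := by
  have h1 : IsLocalHom (Q.q₁.stalkMap z₂).hom := inferInstance
  have h2 : IsLocalHom (ι₂.stalkMap (genericPoint Y₂)).hom := inferInstance
  have h3 : IsLocalHom (beta Q ι₂ z₂ hz₂ hz₂i).symm.toRingHom := by
    constructor
    intro a ha
    exact (MulEquiv.isUnit_map (beta Q ι₂ z₂ hz₂ hz₂i).symm).mp ha
  have h4 : IsLocalHom ((ι₂.stalkMap (genericPoint Y₂)).hom.comp (beta Q ι₂ z₂ hz₂ hz₂i).symm.toRingHom) :=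
    RingHom.isLocalHom_comp _ _
  exact RingHom.isLocalHom_comp _ _

theorem chi_eq_zero_iff (c : X₁.presheaf.stalk (Q.q₁ z₂)) :
    chi Q ι₂ z₂ hz₂ hz₂i c = 0 ↔ c ∈ maximalIdeal (X₁.presheaf.stalk (Q.q₁ z₂)) := by
  have h1 := isLocalHom_chi Q ι₂ z₂ hz₂ hz₂i
  rw [mem_maximalIdeal, mem_nonunits_iff]
  constructor
  · intro h hu
    have := hu.map (chi Q ι₂ z₂ hz₂ hz₂i)
    rw [h] at this
    exact not_isUnit_zero this
  · intro h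
    by_contra h0
    exact h (h1.map_nonunit c (IsUnit.mk0 _ h0))

/-- The values of `chi` are regular at the points of `Y₂` over which `q₂` is a local isomorphism. -/
theorem exists_toK_of_point (y : Y₂) (z : Q.G) (hz : Q.q₂ z = ι₂ y) (hiso : IsIso (Q.q₂.stalkMap z)) (hsp : z₂ ⤳ z)
    (h₁ : Q.q₁ z = Q.q₁ z₂) (c : X₁.presheaf.stalk (Q.q₁ z₂)) :
    ∃ b : Y₂.presheaf.stalk y, toK Y₂ y b = chi Q ι₂ z₂ hz₂ hz₂i c := by
  have e1 : Q.q₁ z ⤳ Q.q₁ z₂ := specializes_of_eq h₁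
  have e2 : Q.q₂ z ⤳ ι₂ y := specializes_of_eq hz
  have e3 : ι₂ (genericPoint Y₂) ⤳ ι₂ y := (genericPoint_specializes Y₂ y).map ι₂.continuous
  have e4 : Q.q₂ z₂ ⤳ ι₂ y := (specializes_of_eq hz₂).trans e3
  obtain ⟨d, hd⟩ := (bijective_stk Q.q₂ z (ι₂ y) hz e2 hiso).2 (stk Q.q₁ z (Q.q₁ z₂) e1 c)
  refine ⟨ι₂.stalkMap y d, ?_⟩
  have h1 : stk Q.q₂ z₂ (ι₂ (genericPoint Y₂)) (specializes_of_eq hz₂) (X₂.presheaf.stalkSpecializes e3 d) =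
      Q.q₁.stalkMap z₂ c := by
    rw [stk_stalkSpecializes Q.q₂ z₂ _ e3 e4, ← stalkSpecializes_stk Q.q₂ z₂ z hsp (ι₂ y) e2 e4, hd,
      stalkSpecializes_stk Q.q₁ z₂ z hsp (Q.q₁ z₂) e1 specializes_rfl, stk_self]
  rw [chi_apply Q ι₂ z₂ hz₂ hz₂i c _ h1]
  have h2 := Scheme.Hom.stalkSpecializes_stalkMap ι₂ (genericPoint Y₂) y (genericPoint_specializes Y₂ y)
  exact congr($h2 d).symm

/-- Compatibility of `chi` with the structure maps. -/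
theorem chi_str (s : S) (e₁ : p₁ (Q.q₁ z₂) ⤳ s) (e₂ : (ι₂ ≫ p₂) (genericPoint Y₂) ⤳ s) (a : S.presheaf.stalk s) :
    chi Q ι₂ z₂ hz₂ hz₂i (stk p₁ (Q.q₁ z₂) s e₁ a) = stk (ι₂ ≫ p₂) (genericPoint Y₂) s e₂ a := by
  have e₃ : p₂ (ι₂ (genericPoint Y₂)) ⤳ s := e₂
  have e₄ : (Q.q₁ ≫ p₁) z₂ ⤳ s := e₁
  have e₅ : (Q.q₂ ≫ p₂) z₂ ⤳ s := by rw [← Q.w]; exact e₁
  rw [chi_apply Q ι₂ z₂ hz₂ hz₂i _ (stk p₂ (ι₂ (genericPoint Y₂)) s e₃ a)]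
  · have h1 := stk_comp ι₂ p₂ (genericPoint Y₂) (ι₂ (genericPoint Y₂)) s specializes_rfl e₃ e₂ a
    rw [stk_self] at h1
    exact h1
  · rw [stk_comp Q.q₂ p₂ z₂ (ι₂ (genericPoint Y₂)) s _ e₃ e₅]
    have h1 := stk_comp Q.q₁ p₁ z₂ (Q.q₁ z₂) s specializes_rfl e₁ e₄ a
    rw [stk_self] at h1
    exact (stk_congr Q.w.symm z₂ s e₅ e₄ a).trans h1.symm

/-- The values of `chi` are regular at the normal points. -/
theorem exists_toK_of_normal [LocallyOfFiniteType p₁] (s : S) (hs : IsClosed ({s} : Set S))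
    (hx : IsClosed ({Q.q₁ z₂} : Set X₁)) (hxs : p₁ (Q.q₁ z₂) = s) (y : Y₂) (hy : p₂ (ι₂ y) = s)
    [IsIntegrallyClosed (Y₂.presheaf.stalk y)] (c : X₁.presheaf.stalk (Q.q₁ z₂)) :
    ∃ b : Y₂.presheaf.stalk y, toK Y₂ y b = chi Q ι₂ z₂ hz₂ hz₂i c := by
  have e₁ : p₁ (Q.q₁ z₂) ⤳ s := specializes_of_eq hxs
  have e₂ : (ι₂ ≫ p₂) y ⤳ s := specializes_of_eq hy
  have e₃ : (ι₂ ≫ p₂) (genericPoint Y₂) ⤳ s :=
    ((genericPoint_specializes Y₂ y).map (ι₂ ≫ p₂).continuous).trans e₂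
  obtain ⟨g, hg, hg'⟩ := exists_monic_stk p₁ (Q.q₁ z₂) hx s hxs e₁ hs c
  have h1 : (g.map (stk (ι₂ ≫ p₂) y s e₂)).Monic := hg.map _
  have h2 : ((g.map (stk (ι₂ ≫ p₂) y s e₂)).eval₂ (toK Y₂ y) (chi Q ι₂ z₂ hz₂ hz₂i c)) = 0 := by
    rw [eval₂_map]
    have h3 : (toK Y₂ y).comp (stk (ι₂ ≫ p₂) y s e₂) =
        (chi Q ι₂ z₂ hz₂ hz₂i).comp (stk p₁ (Q.q₁ z₂) s e₁) := by
      ext a
      have h4 := chi_str Q ι₂ z₂ hz₂ hz₂i s e₁ e₃ a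
      have h5 := stalkSpecializes_stk (ι₂ ≫ p₂) (genericPoint Y₂) y (genericPoint_specializes Y₂ y) s e₂ e₃ a
      exact h5.trans h4.symm
    rw [h3, ← hom_eval₂]
    exact (chi_eq_zero_iff Q ι₂ z₂ hz₂ hz₂i _).mpr hg'
  have h3 : _root_.IsIntegral (Y₂.presheaf.stalk y) (chi Q ι₂ z₂ hz₂ hz₂i c) := ⟨_, h1, h2⟩
  obtain ⟨b, hb⟩ := IsIntegrallyClosed.isIntegral_iff.mp h3
  exact ⟨b, hb⟩

end Groth.Agent.Models.H55.Resid
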